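import Mathlib
import Cfsg.Agent.H831.Cent
import Cfsg.Agent.H832.ThreeProd

set_option autoImplicit false
set_option linter.unusedSectionVars false

/-!
# Type `T7`: the centralizer of two commuting transpositions

For a Fischer group `(G, D)` of type `T7` and two distinct commuting members `d₁, d₂` of `D`:
`K = C(d₁, d₂)` is perfect, `Z(K) = ⟨d₁, d₂⟩`, `K / Z(K) ≅ PSU 6 F 2`, `|F| = 4`; `K` has index two in
`C(d₁ d₂)` and `C(d₁ d₂) / ⟨d₁, d₂⟩` has trivial centre.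
-/

namespace Cfsg.Agent.H832.Seven

open Cfsg Cfsg.Agent.SporadicStructure.FischerSpace Cfsg.Agent.ThreeTransPolar.Basic
open Cfsg.Agent.ThreeTransPolar.Lines
open Cfsg.Agent.Fischer160.Inherit hiding Dx
open Cfsg.Agent.Fischer480.Defs hiding FGroup
open Cfsg.Agent.TSp.Perp Cfsg.Agent.TSp.LTrans
open Cfsg.Agent.TSp.CL Cfsg.Agent.TSp.Orders Cfsg.Agent.TSp.OrdersT
open Cfsg.Agent.R01.Lifts (Ext)
open Cfsg.Agent.R01.Start (zel)
open Cfsg.Agent.H831.Short Cfsg.Agent.H831.Cent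
open scoped commutatorElement

universe u

/-! ### Pure group theory -/

/-- An element acting trivially modulo a central subgroup on a perfect group acts trivially. -/
theorem commute_of_mod {G : Type*} [Group G] {K V : Subgroup G} (hperf : commutator ↥K = ⊤)
    (hV : V ≤ K) (hVK : ∀ v ∈ V, ∀ k ∈ K, k * v = v * k) {c : G} (hc : ∀ k ∈ K, c * k * c⁻¹ * k⁻¹ ∈ V) :
    ∀ k ∈ K, c * k = k * c := by
  -- the centraliser of `c` in `K` contains all commutators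
  let S : Subgroup ↥K := (Subgroup.centralizer ({c} : Set G)).subgroupOf K
  have hS : commutator ↥K ≤ S := by
    rw [commutator_def, Subgroup.commutator_le]
    rintro ⟨a, ha⟩ _ ⟨b, hb⟩ _
    show (⁅(⟨a, ha⟩ : ↥K), ⟨b, hb⟩⁆ : ↥K) ∈ S
    rw [Subgroup.mem_subgroupOf, Subgroup.mem_centralizer_singleton_iff]
    have e : ((⁅(⟨a, ha⟩ : ↥K), ⟨b, hb⟩⁆ : ↥K) : G) = a * b * a⁻¹ * b⁻¹ := rfl
    rw [e]
    obtain ⟨v, hv, hva⟩ : ∃ v ∈ V, c * a * c⁻¹ = v * a := ⟨_, hc a ha, by group⟩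
    obtain ⟨w, hw, hwb⟩ : ∃ w ∈ V, c * b * c⁻¹ = w * b := ⟨_, hc b hb, by group⟩
    have h1 : c * (a * b * a⁻¹ * b⁻¹) * c⁻¹ =
        (c * a * c⁻¹) * (c * b * c⁻¹) * (c * a * c⁻¹)⁻¹ * (c * b * c⁻¹)⁻¹ := by group
    have hVKv := hVK v hv
    have hVKw := hVK w hw
    have hvi : ∀ k ∈ K, k * v⁻¹ = v⁻¹ * k := hVK v⁻¹ (inv_mem hv)
    have hwi : ∀ k ∈ K, k * w⁻¹ = w⁻¹ * k := hVK w⁻¹ (inv_mem hw)
    have h2 : v * a * (w * b) * (v * a)⁻¹ * (w * b)⁻¹ = a * b * a⁻¹ * b⁻¹ := by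
      rw [mul_inv_rev, mul_inv_rev]
      calc v * a * (w * b) * (a⁻¹ * v⁻¹) * (b⁻¹ * w⁻¹)
          = v * (a * w) * b * (a⁻¹ * v⁻¹) * (b⁻¹ * w⁻¹) := by group
        _ = v * w * (a * b * a⁻¹) * v⁻¹ * (b⁻¹ * w⁻¹) := by rw [hVKw a ha]; group
        _ = v * w * ((a * b * a⁻¹) * v⁻¹) * (b⁻¹ * w⁻¹) := by group
        _ = v * w * (v⁻¹ * (a * b * a⁻¹)) * (b⁻¹ * w⁻¹) := by
            rw [hvi _ (mul_mem (mul_mem ha hb) (inv_mem ha))]
        _ = v * w * v⁻¹ * (a * b * a⁻¹ * b⁻¹ * w⁻¹) := by group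
        _ = v * w * v⁻¹ * (w⁻¹ * (a * b * a⁻¹ * b⁻¹)) := by
            rw [hwi _ (mul_mem (mul_mem (mul_mem ha hb) (inv_mem ha)) (inv_mem hb))]
        _ = (v * w * v⁻¹ * w⁻¹) * (a * b * a⁻¹ * b⁻¹) := by group
        _ = a * b * a⁻¹ * b⁻¹ := by
            rw [hVKw v (hV hv), mul_inv_cancel_right, mul_inv_cancel, one_mul]
    rw [hva, hwb, h2] at h1
    exact (mul_inv_eq_iff_eq_mul.1 h1).symm
  intro k hk
  have h1 : (⟨k, hk⟩ : ↥K) ∈ S := hS (by rw [hperf]; trivial)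
  rw [Subgroup.mem_subgroupOf, Subgroup.mem_centralizer_singleton_iff] at h1
  exact h1.symm

/-- A member of the set of commutators modulo. -/
theorem abel_list {K : Type*} [Group K] {S : Set K} (htr : ∀ s ∈ S, ∀ t ∈ S, ∃ k : K, k * s * k⁻¹ = t)
    {s₀ : K} (hs₀ : s₀ ∈ S) (l : List K) (hl : ∀ s ∈ l, s ∈ S) :
    Abelianization.of l.prod = Abelianization.of s₀ ^ l.length := by
  induction l with
  | nil => simp
  | cons b m ih =>
    obtain ⟨k, hk⟩ := htr b (hl b (by simp)) s₀ hs₀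
    have h1 : Abelianization.of b = Abelianization.of s₀ := by
      rw [← hk, map_mul, map_mul, map_inv, mul_comm (Abelianization.of k), mul_inv_cancel_right]
    rw [List.prod_cons, map_mul, ih (fun c hc => hl c (by simp [hc])), h1, List.length_cons,
      pow_succ']

theorem mem_commutator_of_even {K : Type*} [Group K] {S : Set K}
    (htr : ∀ s ∈ S, ∀ t ∈ S, ∃ k : K, k * s * k⁻¹ = t) (hsq : ∀ s ∈ S, s * s = 1)
    (l : List K) (hl : ∀ s ∈ l, s ∈ S) (hev : Even l.length) : l.prod ∈ commutator K := by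
  rcases l with _ | ⟨s₀, m⟩
  · simp
  have hs₀ : s₀ ∈ S := hl s₀ (by simp)
  have h1 := abel_list htr hs₀ (s₀ :: m) hl
  obtain ⟨k, hk⟩ := hev
  have hsq' : Abelianization.of s₀ * Abelianization.of s₀ = 1 := by
    rw [← map_mul, hsq s₀ hs₀, map_one]
  rw [hk, ← two_mul, pow_mul, pow_two, hsq', one_pow] at h1
  have h2 : (s₀ :: m).prod ∈ (Abelianization.of : K →* Abelianization K).ker := h1
  rwa [Abelianization.ker_of] at h2

/-! ### A hexad commuting with a given member and not containing it -/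

theorem exists_hexad_at {G : Type u} [Group G] {D : Set G} [Finite G]
    (F : Cfsg.Agent.Fischer480.Defs.FGroup D) (h : IsT6 D) {y : G}
    (hy : y ∈ D) : ∃ l : List G, l.length = 6 ∧ l.Nodup ∧ (∀ a ∈ l, a ∈ Loc D y) ∧
      (∀ a ∈ l, ∀ b ∈ l, Commute a b) ∧ l.prod = 1 := by
  have F' := inh F
  have hT := F.cls.1
  obtain ⟨h₁, hh₁⟩ := F'.fd.nonempty
  have hU := h.2.1 h₁ hh₁
  obtain ⟨K, i1, i2, f, U⟩ := Cfsg.Agent.S0480U.UModel.exists_um hU
  obtain ⟨x, hx⟩ : (Loc D h₁).Nonempty := by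
    obtain ⟨z, hz, hz1, hz2⟩ := (rk_of_FGroup F').exPerp h₁ hh₁
    exact ⟨z, hz, hz1, hz2⟩
  obtain ⟨a, ha, hxa⟩ := Cfsg.Agent.S0480U.UModel.exists_not_commute U hx
  have hU4 := Cfsg.Agent.S0480U.UModel.isU_com (n := 4) hU hx ha hxa
  obtain ⟨e2, he2, e3, he3, h23, c23⟩ := Cfsg.Agent.H845.T6Hyp.exists_pair hU4
  obtain ⟨p, q, r, hL, hnd, hD, hcm, hp⟩ := Cfsg.Agent.H832.ThreeProd.hexad F h hh₁ he2.1.1 he3.1.1
    he2.1.2.1.symm he3.1.2.1.symm h23 he2.1.2.2 he3.1.2.2 c23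
  have hxL : x ∉ Line (Loc D h₁) e2 e3 := by
    intro hx'
    exact hxa (hx'.2 a ha he2.2.2 he3.2.2).symm
  have hxall : ∀ u ∈ Line (Loc D h₁) e2 e3, Commute x u := fun u hu =>
    hu.2 x hx he2.2.1 he3.2.1
  set l := [h₁, e2, e3, p, q, r] with hl
  have hmem : ∀ u ∈ l, u = h₁ ∨ u ∈ Line (Loc D h₁) e2 e3 := by
    intro u hu
    rcases List.mem_cons.1 hu with hu | hu
    · exact Or.inl hu
    · right
      rw [hL]
      simpa using hu
  have hxl : ∀ u ∈ l, u ∈ Loc D x := by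
    intro u hu
    refine ⟨hD u hu, ?_, ?_⟩
    · rintro rfl
      rcases hmem u hu with h0 | h0
      · exact hx.2.1 h0
      · exact hxL h0
    · rcases hmem u hu with h0 | h0
      · rw [h0]; exact hx.2.2.symm
      · exact hxall u h0
  have hprod : l.prod = 1 := by
    have h1 : l.prod = (h₁ * e2 * e3) * (p * q * r) := by
      rw [hl]
      simp [mul_assoc]
    rw [h1, hp]
    have hsub : ∀ u ∈ [p, q, r], u ∈ l := by
      intro u hu
      rw [hl]
      simp only [List.mem_cons] at hu ⊢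
      tauto
    have := Cfsg.Agent.H831.Short.sq_prod hT [p, q, r] (fun u hu => hD u (hsub u hu))
      (fun u hu v hv => hcm u (hsub u hu) v (hsub v hv))
    simpa [mul_assoc] using this
  obtain ⟨g, hg⟩ := F'.fd.single x hx.1 y hy
  refine ⟨l.map (MulAut.conj g), by simp [hl], ?_, ?_, ?_, ?_⟩
  · exact hnd.map (MulAut.conj g).injective
  · intro u hu
    obtain ⟨v, hv, rfl⟩ := List.mem_map.1 hu
    obtain ⟨v1, v2, v3⟩ := hxl v hv
    refine ⟨F'.fd.conj g v v1, ?_, ?_⟩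
    · intro h0
      apply v2
      rw [← hg] at h0
      exact (MulAut.conj g).injective h0
    · rw [← hg]
      exact (Commute.conj_iff g).2 v3
  · intro u hu w hw
    obtain ⟨v, hv, rfl⟩ := List.mem_map.1 hu
    obtain ⟨v', hv', rfl⟩ := List.mem_map.1 hw
    exact (Commute.conj_iff g).2 (hcm v hv v' hv')
  · rw [← map_list_prod, hprod, map_one]

/-! ### The centralizer of two commuting members -/

section

variable {G : Type u} [Group G] {D : Set G} [Finite G]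
variable (F : FGroup D) (h : IsT7 D) {d₁ d₂ : G} (h₁ : d₁ ∈ D) (h₂ : d₂ ∈ D)
  (hne : d₁ ≠ d₂) (hc : Commute d₁ d₂)

include F h h₁

theorem theta : Theta D :=
  theta_N7 F.fd subset_rfl (Cfsg.Agent.TSp.Basic.tset_of_fdata F.fd) (n7_of_isT7 h)

theorem thin : ThinLines D := thin_N7 (n7_of_isT7 h)

theorem cld : CLD D := cl_seven F (n7_of_isT7 h)

/-- the quotient is a Fischer group of type `T6` -/
theorem sub : FGroup (Eb D d₁) ∧ IsT6 (Eb D d₁) :=
  ⟨inherit_N7 F (n7_of_isT7 h) h₁, Fischer480.Transport.isT6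
    (Fischer480.Transport.CIso.symm (cIso_Eb F.fd (thin F h h₁) h₁)) (h.2.1 d₁ h₁)⟩

include h₂ hne hc

theorem mem_Dx : d₂ ∈ Loc D d₁ := ⟨h₂, hne.symm, hc⟩

theorem exists_six : ∃ l : List G, l.length = 6 ∧ l.Nodup ∧ (∀ b ∈ l, b ∈ Loc (Loc D d₁) d₂) ∧
    (∀ a ∈ l, ∀ b ∈ l, Commute a b) ∧ l.prod = d₁ := by
  obtain ⟨FE, hE⟩ := sub F h h₁
  have hth := thin_of_thinLines (thin F h h₁) h₁
  have hb := mem_Dx F h h₁ h₂ hne hc
  obtain ⟨l, hlen, hnd, hl, hcl, hp⟩ := exists_hexad_at (Cfsg.Agent.H831.Types.defs_of_inh FE) hE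
    (β_mem hb)
  obtain ⟨l', g1, g2, g3, g4, g5, g6⟩ := exists_lift_list F h₁ (theta F h h₁) (thin F h h₁) l
    (fun a ha => (hl a ha).1) hnd hcl
  refine ⟨l', by rw [g1, hlen], g3, ?_, g4, ?_⟩
  · intro b hb'
    have h1 : β D d₁ b ∈ l := by
      rw [← g5]
      exact List.mem_map.2 ⟨b, hb', rfl⟩
    obtain ⟨-, k2, k3⟩ := hl _ h1
    refine ⟨g2 b hb', ?_, ?_⟩
    · rintro rfl
      exact k2 rfl
    · exact (β_commute F.fd hth hb (g2 b hb')).1 k3
  · rcases g6 hp with h0 | h0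
    · exfalso
      have hN := noRel_seven (Cfsg.Agent.H831.Types.defs_of_inh F).cls.1 h
      have := hN l' g3 (fun a ha => (g2 a ha).1) g4 h0 (by rw [g1, hlen])
      rw [this] at g1
      simp [hlen] at g1
    · exact h0

theorem HH_eq : HH D d₁ = Subgroup.centralizer ({d₁} : Set G) := by
  apply Cfsg.Agent.H831.Cent.HH_eq F h₁ (cld F h h₁)
  obtain ⟨l, -, -, hl, -, hp⟩ := exists_six F h h₁ h₂ hne hc
  have h1 : l.prod ∈ HH D d₁ := Subgroup.list_prod_mem _ fun b hb => mem_HH_of (hl b hb).1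
  rwa [hp] at h1

omit [Finite G] F h h₁ h₂ hne hc in
theorem mem_K {x : G} : x ∈ Subgroup.centralizer ({d₁, d₂} : Set G) ↔
    Commute x d₁ ∧ Commute x d₂ := by
  rw [Subgroup.mem_centralizer_iff]
  constructor
  · intro hx
    exact ⟨(hx d₁ (by simp)).symm, (hx d₂ (by simp)).symm⟩
  · rintro ⟨h1, h2⟩ y hy
    rcases hy with rfl | rfl
    · exact h1.symm
    · exact h2.symm

theorem mem_HH_of_K {x : G} (hx : x ∈ Subgroup.centralizer ({d₁, d₂} : Set G)) :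
    x ∈ HH D d₁ := by
  rw [HH_eq F h h₁ h₂ hne hc, Subgroup.mem_centralizer_singleton_iff]
  exact (mem_K.1 hx).1

theorem mem_K_of_β {x : G} (hx : x ∈ HH D d₁) (hxc : Commute (β D d₁ x) (β D d₁ d₂)) :
    x ∈ Subgroup.centralizer ({d₁, d₂} : Set G) := by
  have hth := thin_of_thinLines (thin F h h₁) h₁
  have hb := mem_Dx F h h₁ h₂ hne hc
  refine mem_K.2 ⟨commute_of_mem_HH hx, ?_⟩
  have h1 : β D d₁ (x * d₂ * x⁻¹) = β D d₁ d₂ := by
    rw [β_conj hx (mem_HH_of hb), hxc.eq, mul_inv_cancel_right]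
  have h2 : x * d₂ * x⁻¹ ∈ Loc D d₁ := cj_mem_Dx F.fd (commute_of_mem_HH hx) hb
  exact mul_inv_eq_iff_eq_mul.1 (β_inj hth h2 hb h1)

/-- the map of `C(d₁, d₂)` onto the centralizer of the image of `d₂` -/
noncomputable def rho : Subgroup.centralizer ({d₁, d₂} : Set G) →*
    Subgroup.centralizer ({β D d₁ d₂} : Set (KK D d₁)) where
  toFun x := ⟨β D d₁ x, by
    rw [Subgroup.mem_centralizer_singleton_iff,
      ← β_mul (mem_HH_of_K F h h₁ h₂ hne hc x.2) (mem_HH_of (mem_Dx F h h₁ h₂ hne hc)),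
      ← β_mul (mem_HH_of (mem_Dx F h h₁ h₂ hne hc)) (mem_HH_of_K F h h₁ h₂ hne hc x.2),
      (mem_K.1 x.2).2.eq]⟩
  map_one' := by
    apply Subtype.ext
    show β D d₁ (1 : G) = 1
    rw [β_of (one_mem _)]
    rfl
  map_mul' x y := by
    apply Subtype.ext
    exact β_mul (mem_HH_of_K F h h₁ h₂ hne hc x.2) (mem_HH_of_K F h h₁ h₂ hne hc y.2)

theorem rho_surjective : Function.Surjective (rho F h h₁ h₂ hne hc) := by
  rintro ⟨y, hy⟩
  obtain ⟨g, hg, rfl⟩ := β_surj' y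
  exact ⟨⟨g, mem_K_of_β F h h₁ h₂ hne hc hg (Subgroup.mem_centralizer_singleton_iff.1 hy)⟩, rfl⟩

theorem β_eq_one {x : G} (hx : x ∈ HH D d₁) : β D d₁ x = 1 ↔ x = 1 ∨ x = d₁ := by
  rw [β_of hx, QuotientGroup.eq_one_iff, mem_center_HH F (theta F h h₁) h₁]

theorem rho_eq_one (x : Subgroup.centralizer ({d₁, d₂} : Set G)) :
    rho F h h₁ h₂ hne hc x = 1 ↔ (x : G) = 1 ∨ (x : G) = d₁ := by
  rw [← β_eq_one F h h₁ h₂ hne hc (mem_HH_of_K F h h₁ h₂ hne hc x.2)]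
  exact ⟨fun h0 => congrArg Subtype.val h0, fun h0 => Subtype.ext h0⟩

/-- the members of `D` commuting with `d₁`, `d₂` are conjugate in `C(d₁, d₂)` -/
theorem trans_K {s t : G} (hs : s ∈ Loc (Loc D d₁) d₂) (ht : t ∈ Loc (Loc D d₁) d₂) :
    ∃ k ∈ Subgroup.centralizer ({d₁, d₂} : Set G), k * s * k⁻¹ = t := by
  obtain ⟨FE, hE⟩ := sub F h h₁
  have hth := thin_of_thinLines (thin F h h₁) h₁
  have hb := mem_Dx F h h₁ h₂ hne hc
  have key : ∀ {u : G}, u ∈ Loc (Loc D d₁) d₂ → β D d₁ u ∈ Loc (Eb D d₁) (β D d₁ d₂) := by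
    intro u hu
    refine ⟨β_mem hu.1, fun h0 => hu.2.1 (β_inj hth hu.1 hb h0),
      (β_commute F.fd hth hb hu.1).2 hu.2.2⟩
  obtain ⟨g, hg⟩ := single_E FE (β_mem hb)
    (a := ⟨β D d₁ s, mem_HH_of (key hs)⟩) (b := ⟨β D d₁ t, mem_HH_of (key ht)⟩) (key hs) (key ht)
  have hg' : (g : KK D d₁) * β D d₁ s * (g : KK D d₁)⁻¹ = β D d₁ t := congrArg Subtype.val hg
  obtain ⟨k, hk, hkg⟩ := β_surj' (g : KK D d₁)
  refine ⟨k, mem_K_of_β F h h₁ h₂ hne hc hk ?_, ?_⟩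
  · rw [hkg]
    exact commute_of_mem_HH g.2
  · rw [← hkg, ← β_conj hk (mem_HH_of hs.1)] at hg'
    exact β_inj hth (cj_mem_Dx F.fd (commute_of_mem_HH hk) hs.1) ht.1 hg'

/-- **`C(d₁, d₂)` is perfect.** -/
theorem perfect_K : commutator (Subgroup.centralizer ({d₁, d₂} : Set G)) = ⊤ := by
  obtain ⟨FE, hE⟩ := sub F h h₁
  have hb := mem_Dx F h h₁ h₂ hne hc
  -- `d₁` is in the derived subgroup
  have hd1 : (⟨d₁, mem_K.2 ⟨Commute.refl _, hc⟩⟩ : Subgroup.centralizer ({d₁, d₂} : Set G)) ∈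
      commutator (Subgroup.centralizer ({d₁, d₂} : Set G)) := by
    obtain ⟨l, hlen, -, hl, -, hp⟩ := exists_six F h h₁ h₂ hne hc
    have hlK : ∀ b ∈ l, b ∈ Subgroup.centralizer ({d₁, d₂} : Set G) := fun b hb' =>
      mem_K.2 ⟨(hl b hb').1.2.2.symm, (hl b hb').2.2.symm⟩
    let l' : List (Subgroup.centralizer ({d₁, d₂} : Set G)) := l.attach.map
      fun b => ⟨b.1, hlK b.1 b.2⟩
    have hl'p : l'.prod = ⟨d₁, mem_K.2 ⟨Commute.refl _, hc⟩⟩ := by
      apply Subtype.ext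
      rw [Subgroup.val_list_prod]
      show (List.map _ (List.map _ l.attach)).prod = d₁
      rw [List.map_map]
      refine Eq.trans ?_ hp
      congr 1
      exact List.attach_map_subtype_val l
    rw [← hl'p]
    refine mem_commutator_of_even
      (S := {x : Subgroup.centralizer ({d₁, d₂} : Set G) | (x : G) ∈ Loc (Loc D d₁) d₂})
      ?_ ?_ l' ?_ ?_
    · intro s hs t ht
      obtain ⟨k, hk, hkst⟩ := trans_K F h h₁ h₂ hne hc hs ht
      exact ⟨⟨k, hk⟩, Subtype.ext hkst⟩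
    · intro s hs
      exact Subtype.ext (F.fd.sq _ hs.1.1)
    · intro s hs
      obtain ⟨b, -, rfl⟩ := List.mem_map.1 hs
      exact hl b.1 b.2
    · rw [List.length_map, List.length_attach, hlen]
      decide
  rw [eq_top_iff]
  intro x _
  have hperf := Cfsg.Agent.H845.T6Iso.perfect_centralizer FE (n6_of_isT6 hE) (β_mem hb)
  have h1 : rho F h h₁ h₂ hne hc x ∈ commutator
      (Subgroup.centralizer ({β D d₁ d₂} : Set (KK D d₁))) := by rw [hperf]; trivial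
  rw [commutator_def, ← Subgroup.map_top_of_surjective _ (rho_surjective F h h₁ h₂ hne hc),
    ← Subgroup.map_commutator, ← commutator_def] at h1
  obtain ⟨y, hy, hyx⟩ := h1
  have h2 : rho F h h₁ h₂ hne hc (y⁻¹ * x) = 1 := by
    rw [map_mul, map_inv, hyx, inv_mul_cancel]
  have h3 : y⁻¹ * x ∈ commutator (Subgroup.centralizer ({d₁, d₂} : Set G)) := by
    rcases (rho_eq_one F h h₁ h₂ hne hc _).1 h2 with h3 | h3
    · have : y⁻¹ * x = 1 := Subtype.ext h3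
      rw [this]
      exact one_mem _
    · have : y⁻¹ * x = ⟨d₁, mem_K.2 ⟨Commute.refl _, hc⟩⟩ := Subtype.ext h3
      rw [this]
      exact hd1
  have h4 := mul_mem hy h3
  rwa [mul_inv_cancel_left] at h4

/-- **The projection onto `U₆(2)`.** -/
theorem exists_psu : ∃ (L : Type) (_ : Field L) (_ : Fintype L), Fintype.card L = 4 ∧
    ∃ φ : Subgroup.centralizer ({d₁, d₂} : Set G) →* PSU 6 L 2, Function.Surjective φ ∧
      ∀ x, φ x = 1 ↔ (x : G) = 1 ∨ (x : G) = d₁ ∨ (x : G) = d₂ ∨ (x : G) = d₁ * d₂ := by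
  obtain ⟨FE, hE⟩ := sub F h h₁
  have hb := mem_Dx F h h₁ h₂ hne hc
  obtain ⟨L, i1, i2, hL, π, hπ⟩ := Cfsg.Agent.H845.T6Iso.exists_ext FE (n6_of_isT6 hE) (β_mem hb)
  refine ⟨L, i1, i2, hL, π.comp (rho F h h₁ h₂ hne hc),
    hπ.surj.comp (rho_surjective F h h₁ h₂ hne hc), ?_⟩
  intro x
  rw [MonoidHom.comp_apply, hπ.ker, rho_eq_one]
  have hx := mem_HH_of_K F h h₁ h₂ hne hc x.2
  have hb' := mem_HH_of hb
  have h1 : rho F h h₁ h₂ hne hc x = zel (β D d₁ d₂) ↔ β D d₁ ((x : G) * d₂) = 1 := by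
    rw [β_mul hx hb']
    have hsq : β D d₁ d₂ * β D d₁ d₂ = 1 := FE.fd.sq _ (β_mem hb)
    constructor
    · intro h0
      have h0' : β D d₁ (x : G) = β D d₁ d₂ := congrArg Subtype.val h0
      rw [h0', hsq]
    · intro h0
      apply Subtype.ext
      show β D d₁ (x : G) = β D d₁ d₂
      rw [← mul_left_inj (β D d₁ d₂), h0, hsq]
  rw [h1, β_eq_one F h h₁ h₂ hne hc (mul_mem hx hb')]
  have q2 := F.fd.sq d₂ h₂
  have e1 : (x : G) * d₂ = 1 ↔ (x : G) = d₂ := by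
    rw [← mul_left_inj d₂, mul_assoc, q2, mul_one, one_mul]
  have e2 : (x : G) * d₂ = d₁ ↔ (x : G) = d₁ * d₂ := by
    rw [← mul_left_inj d₂, mul_assoc, q2, mul_one]
  rw [e1, e2]
  tauto

omit h h₂ hne in
theorem mem_closure_pair {x : G} (hsq1 : d₁ * d₁ = 1) (hsq2 : d₂ * d₂ = 1) :
    x ∈ Subgroup.closure ({d₁, d₂} : Set G) ↔ x = 1 ∨ x = d₁ ∨ x = d₂ ∨ x = d₁ * d₂ := by
  constructor
  · intro hx
    have hcc : d₂ * d₁ = d₁ * d₂ := hc.symm.eq
    have i1 : d₁⁻¹ = d₁ := inv_eq_of_mul_eq_one_left hsq1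
    have i2 : d₂⁻¹ = d₂ := inv_eq_of_mul_eq_one_left hsq2
    refine Subgroup.closure_induction (p := fun x _ => x = 1 ∨ x = d₁ ∨ x = d₂ ∨ x = d₁ * d₂)
      ?_ ?_ ?_ ?_ hx
    · rintro y (rfl | rfl) <;> simp
    · simp
    · have a1 : d₁ * (d₁ * d₂) = d₂ := by rw [← mul_assoc, hsq1, one_mul]
      have a2 : d₂ * (d₁ * d₂) = d₁ := by rw [← hcc, ← mul_assoc, hsq2, one_mul]
      have a3 : d₁ * d₂ * d₁ = d₂ := by rw [mul_assoc, hcc, a1]
      have a4 : d₁ * d₂ * d₂ = d₁ := by rw [mul_assoc, hsq2, mul_one]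
      have a5 : d₁ * d₂ * (d₁ * d₂) = 1 := by rw [mul_assoc, a2, hsq1]
      rintro y z - - (rfl | rfl | rfl | rfl) (rfl | rfl | rfl | rfl) <;>
        simp only [one_mul, mul_one, hsq1, hsq2, hcc, a1, a2, a3, a4, a5, true_or, or_true]
    · rintro y - (rfl | rfl | rfl | rfl)
      · simp
      · simp [i1]
      · simp [i2]
      · simp [i1, i2, hcc]
  · have m1 : d₁ ∈ Subgroup.closure ({d₁, d₂} : Set G) := Subgroup.subset_closure (by simp)
    have m2 : d₂ ∈ Subgroup.closure ({d₁, d₂} : Set G) := Subgroup.subset_closure (by simp)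
    rintro (rfl | rfl | rfl | rfl)
    · exact one_mem _
    · exact m1
    · exact m2
    · exact mul_mem m1 m2

/-- the elements commuting with `d₁ d₂` -/
theorem swap_or_fix {x : G} (hx : Commute x (d₁ * d₂)) :
    (Commute x d₁ ∧ Commute x d₂) ∨ (x * d₁ * x⁻¹ = d₂ ∧ x * d₂ * x⁻¹ = d₁) := by
  have hT := (Cfsg.Agent.H831.Types.defs_of_inh F).cls.1
  have hN := noRel_seven hT h
  set a := x * d₁ * x⁻¹ with ha
  set b := x * d₂ * x⁻¹ with hb
  have haD : a ∈ D := F.fd.conj x d₁ h₁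
  have hbD : b ∈ D := F.fd.conj x d₂ h₂
  have hab : a ≠ b := fun h0 => hne (mul_left_cancel (mul_right_cancel h0))
  have cab : Commute a b := (Commute.conj_iff x).2 hc
  have hp : a * b = d₁ * d₂ := by
    have : a * b = x * (d₁ * d₂) * x⁻¹ := by rw [ha, hb]; group
    rw [this, hx.eq, mul_inv_cancel_right]
  have hu := unique hT (m := 2) (hN.mono (by norm_num)) (by norm_num)
    [a, b] [d₁, d₂] (by simp [hab]) (by simp [hne]) (by simp) (by simp)
    (by simp [haD, hbD]) (by simp [h₁, h₂]) (by simp [cab, cab.symm]) (by simp [hc, hc.symm])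
    (by simp [hp])
  have h1 : a = d₁ ∨ a = d₂ := by simpa using (hu a).1 (by simp)
  have h2 : b = d₁ ∨ b = d₂ := by simpa using (hu b).1 (by simp)
  rcases h1 with h1 | h1
  · left
    have h2' : b = d₂ := by
      rcases h2 with h2 | h2
      · exact absurd (h1.trans h2.symm) hab
      · exact h2
    exact ⟨mul_inv_eq_iff_eq_mul.1 h1, mul_inv_eq_iff_eq_mul.1 h2'⟩
  · right
    refine ⟨h1, ?_⟩
    rcases h2 with h2 | h2
    · exact h2
    · exact absurd (h1.trans h2.symm) hab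

omit h in
theorem exists_swap : ∃ p : G, p * d₁ * p⁻¹ = d₂ ∧ p * d₂ * p⁻¹ = d₁ := by
  have R := rk_of_FGroup F
  obtain ⟨g, hg⟩ := F.fd.single d₁ h₁ d₂ h₂
  have c1 : Commute d₂ (g * d₂ * g⁻¹) := by
    have := (Commute.conj_iff g).2 hc
    rwa [hg] at this
  have n1 : g * d₂ * g⁻¹ ≠ d₂ := by
    intro h0
    exact hne (mul_left_cancel (mul_right_cancel (h0.trans hg.symm))).symm
  obtain ⟨k, hk1, hk2⟩ := R.comTrans d₂ h₂ (g * d₂ * g⁻¹) (F.fd.conj g d₂ h₂) d₁ h₁ n1 hne c1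
    hc.symm
  refine ⟨k * g, ?_, ?_⟩
  · calc k * g * d₁ * (k * g)⁻¹ = k * (g * d₁ * g⁻¹) * k⁻¹ := by group
      _ = d₂ := by rw [hg]; exact hk1
  · calc k * g * d₂ * (k * g)⁻¹ = k * (g * d₂ * g⁻¹) * k⁻¹ := by group
      _ = d₁ := hk2

omit [Finite G] F h h₁ h₂ hne hc in
theorem K_le : Subgroup.centralizer ({d₁, d₂} : Set G) ≤
    Subgroup.centralizer ({d₁ * d₂} : Set G) := by
  intro x hx
  obtain ⟨h1, h2⟩ := mem_K.1 hx
  rw [Subgroup.mem_centralizer_singleton_iff]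
  exact h1.mul_right h2

theorem index_K : ((Subgroup.centralizer ({d₁, d₂} : Set G)).subgroupOf
    (Subgroup.centralizer ({d₁ * d₂} : Set G))).index = 2 := by
  show (Subgroup.centralizer ({d₁, d₂} : Set G)).relIndex
    (Subgroup.centralizer ({d₁ * d₂} : Set G)) = 2
  rw [Subgroup.relIndex_eq_two_iff]
  obtain ⟨p, hp, hp'⟩ := exists_swap F h₁ h₂ hne hc
  have hpz : p * (d₁ * d₂) = d₁ * d₂ * p := by
    have h1 : p * (d₁ * d₂) * p⁻¹ = (p * d₁ * p⁻¹) * (p * d₂ * p⁻¹) := by group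
    rw [hp, hp', hc.symm.eq] at h1
    exact mul_inv_eq_iff_eq_mul.1 h1
  have hp1 : p * d₁ = d₂ * p := mul_inv_eq_iff_eq_mul.1 hp
  have hp2 : p * d₂ = d₁ * p := mul_inv_eq_iff_eq_mul.1 hp'
  refine ⟨p, Subgroup.mem_centralizer_singleton_iff.2 hpz, fun b hb => ?_⟩
  rcases swap_or_fix F h h₁ h₂ hne hc (Subgroup.mem_centralizer_singleton_iff.1 hb) with
    ⟨h1, h2⟩ | ⟨h1, h2⟩
  · right
    refine ⟨mem_K.2 ⟨h1, h2⟩, fun h0 => ?_⟩
    have h3 : b * p * d₁ = d₁ * (b * p) := (mem_K.1 h0).1.eq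
    apply hne
    have h4 : b * (p * d₁) = d₁ * b * p := by rw [← mul_assoc, h3, mul_assoc]
    rw [hp1, ← mul_assoc, h2.eq] at h4
    have h5 := mul_right_cancel (mul_right_cancel h4)
    exact h5.symm
  · left
    have e1 : b * d₁ = d₂ * b := mul_inv_eq_iff_eq_mul.1 h1
    have e2 : b * d₂ = d₁ * b := mul_inv_eq_iff_eq_mul.1 h2
    refine ⟨mem_K.2 ⟨?_, ?_⟩, fun h0 => ?_⟩
    · show b * p * d₁ = d₁ * (b * p)
      rw [mul_assoc, hp1, ← mul_assoc, e2, mul_assoc]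
    · show b * p * d₂ = d₂ * (b * p)
      rw [mul_assoc, hp2, ← mul_assoc, e1, mul_assoc]
    · have h3 : b * d₁ = d₁ * b := (mem_K.1 h0).1.eq
      apply hne
      rw [e1] at h3
      exact (mul_right_cancel h3).symm

omit [Finite G] F h h₁ h₂ hne hc in
theorem center_psu {L : Type} [Field L] [Fintype L] (hL : Fintype.card L = 4) :
    Subgroup.center (PSU 6 L 2) = ⊥ := by
  have hs : IsSimpleGroup (PSU 6 L 2) := Cfsg.Agent.S0283.result (q := 2) (by rw [hL]; norm_num) 6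
    (by norm_num) (by norm_num)
  rcases hs.eq_bot_or_eq_top_of_normal (Subgroup.center (PSU 6 L 2)) inferInstance with h0 | h0
  · exact h0
  · exfalso
    have hcard := card_PSU hL
    have hcom : ∀ a b : PSU 6 L 2, a * b = b * a := by
      intro a b
      have : b ∈ Subgroup.center (PSU 6 L 2) := by rw [h0]; trivial
      exact Subgroup.mem_center_iff.1 this a
    let _ : CommGroup (PSU 6 L 2) := { (inferInstance : Group (PSU 6 L 2)) with mul_comm := hcom }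
    have hfin : Finite (PSU 6 L 2) := Nat.finite_of_card_ne_zero (by rw [hcard]; norm_num)
    have hp := IsSimpleGroup.prime_card (α := PSU 6 L 2)
    rw [hcard] at hp
    norm_num at hp

/-- **The centre of `C(d₁, d₂)`.** -/
theorem mem_center_K (x : Subgroup.centralizer ({d₁, d₂} : Set G)) :
    x ∈ Subgroup.center (Subgroup.centralizer ({d₁, d₂} : Set G)) ↔
      (x : G) = 1 ∨ (x : G) = d₁ ∨ (x : G) = d₂ ∨ (x : G) = d₁ * d₂ := by
  obtain ⟨L, i1, i2, hL, φ, hφ, hker⟩ := exists_psu F h h₁ h₂ hne hc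
  rw [← hker]
  constructor
  · intro hx
    have h1 : φ x ∈ Subgroup.center (PSU 6 L 2) := by
      rw [Subgroup.mem_center_iff]
      intro g
      obtain ⟨g, rfl⟩ := hφ g
      rw [← map_mul, ← map_mul, Subgroup.mem_center_iff.1 hx g]
    rwa [center_psu hL, Subgroup.mem_bot] at h1
  · intro hx
    rw [hker] at hx
    rw [Subgroup.mem_center_iff]
    intro g
    obtain ⟨g1, g2⟩ := mem_K.1 g.2
    apply Subtype.ext
    show (g : G) * (x : G) = (x : G) * (g : G)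
    rcases hx with hx | hx | hx | hx
    · rw [hx, one_mul, mul_one]
    · rw [hx]; exact g1.eq
    · rw [hx]; exact g2.eq
    · rw [hx]; exact (g1.mul_right g2).eq

theorem map_center_K : (Subgroup.center (Subgroup.centralizer ({d₁, d₂} : Set G))).map
    (Subgroup.centralizer ({d₁, d₂} : Set G)).subtype = Subgroup.closure ({d₁, d₂} : Set G) := by
  ext x
  rw [mem_closure_pair F h₁ hc (F.fd.sq d₁ h₁) (F.fd.sq d₂ h₂)]
  constructor
  · rintro ⟨y, hy, rfl⟩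
    exact (mem_center_K F h h₁ h₂ hne hc y).1 hy
  · intro hx
    have hxK : x ∈ Subgroup.centralizer ({d₁, d₂} : Set G) := by
      rw [mem_K]
      rcases hx with rfl | rfl | rfl | rfl
      · exact ⟨Commute.one_left _, Commute.one_left _⟩
      · exact ⟨Commute.refl _, hc⟩
      · exact ⟨hc.symm, Commute.refl _⟩
      · exact ⟨(Commute.refl d₁).mul_left hc.symm, hc.mul_left (Commute.refl d₂)⟩
    exact ⟨⟨x, hxK⟩, (mem_center_K F h h₁ h₂ hne hc _).2 hx, rfl⟩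

theorem exists_quo : ∃ (L : Type) (_ : Field L) (_ : Fintype L), Fintype.card L = 4 ∧
    Nonempty (Subgroup.centralizer ({d₁, d₂} : Set G) ⧸
      Subgroup.center (Subgroup.centralizer ({d₁, d₂} : Set G)) ≃* PSU 6 L 2) := by
  obtain ⟨L, i1, i2, hL, φ, hφ, hker⟩ := exists_psu F h h₁ h₂ hne hc
  have hk : Subgroup.center (Subgroup.centralizer ({d₁, d₂} : Set G)) = φ.ker := by
    ext x
    rw [mem_center_K F h h₁ h₂ hne hc, ← hker, MonoidHom.mem_ker]
  exact ⟨L, i1, i2, hL, ⟨(QuotientGroup.quotientMulEquivOfEq hk).trans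
    (QuotientGroup.quotientKerEquivOfSurjective φ hφ)⟩⟩

theorem quasi_K : IsQuasisimple (Subgroup.centralizer ({d₁, d₂} : Set G)) := by
  refine ⟨Group.isPerfect_def.2 (perfect_K F h h₁ h₂ hne hc), ?_⟩
  obtain ⟨L, i1, i2, hL, ⟨e⟩⟩ := exists_quo F h h₁ h₂ hne hc
  have hs : IsSimpleGroup (PSU 6 L 2) := Cfsg.Agent.S0283.result (q := 2) (by rw [hL]; norm_num) 6
    (by norm_num) (by norm_num)
  exact e.isSimpleGroup

/-- **`C(d₁ d₂) / ⟨d₁, d₂⟩` has trivial centre.** -/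
theorem center_quo {V : Subgroup G} (hV : V = Subgroup.closure ({d₁, d₂} : Set G))
    [(V.subgroupOf (Subgroup.centralizer ({d₁ * d₂} : Set G))).Normal] :
    Subgroup.center (Subgroup.centralizer ({d₁ * d₂} : Set G) ⧸
      V.subgroupOf (Subgroup.centralizer ({d₁ * d₂} : Set G))) = ⊥ := by
  have hVmem : ∀ x : G, x ∈ V ↔ x = 1 ∨ x = d₁ ∨ x = d₂ ∨ x = d₁ * d₂ := by
    intro x
    rw [hV, mem_closure_pair F h₁ hc (F.fd.sq d₁ h₁) (F.fd.sq d₂ h₂)]
  rw [eq_bot_iff]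
  intro q hq
  obtain ⟨c, rfl⟩ := QuotientGroup.mk_surjective q
  rw [Subgroup.mem_bot, QuotientGroup.eq_one_iff, Subgroup.mem_subgroupOf]
  have hmap := map_center_K F h h₁ h₂ hne hc
  have hVK : V ≤ Subgroup.centralizer ({d₁, d₂} : Set G) := by
    rw [hV, ← hmap]
    exact Subgroup.map_subtype_le _
  have hVc : ∀ v ∈ V, ∀ k ∈ Subgroup.centralizer ({d₁, d₂} : Set G), k * v = v * k := by
    intro v hv k hk
    rw [hV, ← hmap] at hv
    obtain ⟨v', hv', rfl⟩ := hv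
    exact congrArg Subtype.val (Subgroup.mem_center_iff.1 hv' ⟨k, hk⟩)
  have key := commute_of_mod (perfect_K F h h₁ h₂ hne hc) hVK hVc (c := (c : G)) (by
    intro k hk
    have h1 := Subgroup.mem_center_iff.1 hq (QuotientGroup.mk ⟨k, K_le hk⟩)
    have h2 : (QuotientGroup.mk ((c : Subgroup.centralizer ({d₁ * d₂} : Set G)) *
        ⟨k, K_le hk⟩ * c⁻¹ * (⟨k, K_le hk⟩ : Subgroup.centralizer ({d₁ * d₂} : Set G))⁻¹) :
        Subgroup.centralizer ({d₁ * d₂} : Set G) ⧸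
          V.subgroupOf (Subgroup.centralizer ({d₁ * d₂} : Set G))) = 1 := by
      rw [QuotientGroup.mk_mul, QuotientGroup.mk_mul, QuotientGroup.mk_mul, ← h1,
        QuotientGroup.mk_inv, QuotientGroup.mk_inv, mul_inv_cancel_right, mul_inv_cancel]
    rw [QuotientGroup.eq_one_iff, Subgroup.mem_subgroupOf] at h2
    exact h2)
  have hd1 : d₁ ∈ Subgroup.centralizer ({d₁, d₂} : Set G) := mem_K.2 ⟨Commute.refl _, hc⟩
  have hd2 : d₂ ∈ Subgroup.centralizer ({d₁, d₂} : Set G) := mem_K.2 ⟨hc.symm, Commute.refl _⟩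
  have hcK : (c : G) ∈ Subgroup.centralizer ({d₁, d₂} : Set G) :=
    mem_K.2 ⟨key d₁ hd1, key d₂ hd2⟩
  rw [hVmem, ← mem_center_K F h h₁ h₂ hne hc ⟨c, hcK⟩, Subgroup.mem_center_iff]
  intro g
  exact Subtype.ext (key g g.2).symm

end

end Cfsg.Agent.H832.Seven
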